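import Cfsg.Agent.H929.SimO
import Cfsg.Agent.H884.OmegaGL

/-!
A subgroup of `GL_n(q)`, `n ≥ 7`, which contains `Ω(Q)` for a non-degenerate quadratic form `Q` (any
characteristic) and an element which is not a similarity of the polar form contains `SL_n(q)`.
-/

set_option autoImplicit false
set_option linter.unusedSectionVars false

namespace Cfsg.Agent.H396.Rl

open Matrix Cfsg.Agent.H873 Cfsg.Agent.H929

variable {ι : Type} [Fintype ι] [DecidableEq ι] {F : Type*} [Field F]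
variable {Q Q' : (ι → F) → F} {B B' : (ι → F) → (ι → F) → F}

/-- The vectors killed by `k` functionals are not contained in a subspace of dimension less than
`n - k`. -/
theorem exists_notMem {k : ℕ} (S : Submodule F (ι → F)) (φ : Fin k → (ι → F))
    (hk : k + Module.finrank F S < Fintype.card ι) :
    ∃ x : ι → F, x ∉ S ∧ ∀ i, φ i ⬝ᵥ x = 0 := by
  let L : (ι → F) →ₗ[F] (Fin k → F) :=
    { toFun := fun x i => φ i ⬝ᵥ x
      map_add' := fun x y => by ext i; exact dotProduct_add _ _ _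
      map_smul' := fun c x => by ext i; simp [dotProduct_smul] }
  by_contra hcon
  push Not at hcon
  have hle : LinearMap.ker L ≤ S := by
    intro x hx
    by_contra hxS
    obtain ⟨i, hi⟩ := hcon x hxS
    exact hi (congrFun (show L x = 0 from hx) i)
  have h1 := L.finrank_range_add_finrank_ker
  have h2 : Module.finrank F (LinearMap.range L) ≤ k := by
    calc _ ≤ Module.finrank F (Fin k → F) := Submodule.finrank_le _
      _ = k := by rw [Module.finrank_pi, Fintype.card_fin]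
  have h3 := Submodule.finrank_mono hle
  rw [Module.finrank_pi] at h1
  omega

/-- A functional outside the span of `k` functionals does not vanish on their common kernel. -/
theorem exists_dot_ne {k : ℕ} (φ : Fin k → (ι → F)) {ψ : ι → F}
    (hψ : ψ ∉ Submodule.span F (Set.range φ)) :
    ∃ x : ι → F, (∀ i, φ i ⬝ᵥ x = 0) ∧ ψ ⬝ᵥ x ≠ 0 := by
  let D : (ι → F) →ₗ[F] ((ι → F) →ₗ[F] F) :=
    { toFun := fun χ =>
        { toFun := fun x => χ ⬝ᵥ x
          map_add' := fun x y => dotProduct_add _ _ _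
          map_smul' := fun c x => by simp [dotProduct_smul] }
      map_add' := fun x y => by ext i; simp
      map_smul' := fun c x => by ext i; simp }
  have hinj : Function.Injective D := by
    intro χ χ' hχ
    apply dot_ext
    intro u
    exact congrArg (fun f : (ι → F) →ₗ[F] F => f u) hχ
  by_contra hcon
  push Not at hcon
  apply hψ
  have h1 : D ψ ∈ Submodule.span F (Set.range fun i => D (φ i)) := by
    apply mem_span_of_iInf_ker_le_ker
    intro x hx
    rw [Submodule.mem_iInf] at hx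
    exact hcon x fun i => hx i
  have h2 : Set.range (fun i => D (φ i)) = D '' Set.range φ := by
    rw [← Set.range_comp]; rfl
  rw [h2, ← Submodule.map_span] at h1
  obtain ⟨χ, hχ, hχ'⟩ := h1
  rwa [← hinj hχ']

/-- The common kernel of two functionals is not totally isotropic. -/
theorem exists_pair (h : QF Q B) (hnd : ∀ x, x ≠ 0 → ∃ y, B x y ≠ 0)
    (hn : 5 ≤ Fintype.card ι) (φ ψ : ι → F) :
    ∃ b c : ι → F, φ ⬝ᵥ b = 0 ∧ ψ ⬝ᵥ b = 0 ∧ φ ⬝ᵥ c = 0 ∧ ψ ⬝ᵥ c = 0 ∧ B b c ≠ 0 := by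
  obtain ⟨p, rfl⟩ := h.exists_rB hnd φ
  obtain ⟨q, rfl⟩ := h.exists_rB hnd ψ
  obtain ⟨b, hb, hb'⟩ := exists_notMem (F := F) (k := 2) (Submodule.span F (Set.range ![p, q]))
    ![rB B p, rB B q] (by
      have := finrank_range_le_card (R := F) ![p, q]
      rw [Fintype.card_fin] at this
      change Module.finrank F (Submodule.span F (Set.range ![p, q])) ≤ 2 at this
      omega)
  obtain ⟨c, hc, hc'⟩ := exists_dot_ne ![rB B p, rB B q] (ψ := rB B b) (by
    intro hmem
    apply hb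
    let R : (ι → F) →ₗ[F] (ι → F) :=
      { toFun := rB B
        map_add' := h.rB_add
        map_smul' := fun c v => h.rB_smul c v }
    have hinj : Function.Injective R := by
      rw [injective_iff_map_eq_zero]
      intro v hv
      by_contra hne
      obtain ⟨y, hy⟩ := hnd v hne
      apply hy
      rw [← h.rB_dot]
      change R v ⬝ᵥ y = 0
      rw [hv, zero_dotProduct]
    have h2 : Set.range ![rB B p, rB B q] = R '' Set.range ![p, q] := by
      rw [← Set.range_comp]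
      congr 1
      ext i
      fin_cases i <;> rfl
    rw [h2, ← Submodule.map_span] at hmem
    obtain ⟨χ, hχ, hχ'⟩ := hmem
    have : χ = b := hinj hχ'
    rwa [← this])
  exact ⟨b, c, hb' 0, hb' 1, hc 0, hc 1, by rw [← h.rB_dot]; exact hc'⟩

theorem isSquare_of_two [Finite F] (h2 : (2 : F) = 0) (a : F) : IsSquare a := by
  have := Fintype.ofFinite F
  exact FiniteField.isSquare_of_char_two (CharP.ringChar_of_prime_eq_zero Nat.prime_two (by exact_mod_cast h2)) a

/-- A non-degenerate quadratic space of dimension at least three over a finite field has a non-zero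
singular vector. -/
theorem exists_singular [Finite F] (h : QF Q B) (W : Submodule F (ι → F))
    (hnd : ∀ x ∈ W, x ≠ 0 → ∃ y ∈ W, B x y ≠ 0)
    (hdim : 3 ≤ Module.finrank F W) : ∃ a ∈ W, a ≠ 0 ∧ Q a = 0 := by
  by_cases h2 : (2 : F) = 0
  · have hgt : ∀ (U S : Submodule F (ι → F)), Module.finrank F S < Module.finrank F U →
        ∃ x ∈ U, x ∉ S := by
      intro U S hlt
      apply SetLike.not_le_iff_exists.1
      intro hle
      have := Submodule.finrank_mono hle
      omega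
    obtain ⟨e, heW, he⟩ := hgt W ⊥ (by rw [finrank_bot]; omega)
    rw [Submodule.mem_bot] at he
    by_cases hQe : Q e = 0
    · exact ⟨e, heW, he, hQe⟩
    have hfr := perp_finrank h W e
    obtain ⟨x, hx, hxe⟩ := hgt (perp B h W e) (Submodule.span F {e}) (by
      have := finrank_span_singleton (K := F) he
      omega)
    rw [mem_perp] at hx
    obtain ⟨c, hc⟩ := isSquare_of_two h2 (Q x / Q e)
    refine ⟨x + c • e, W.add_mem hx.1 (W.smul_mem _ heW), ?_, ?_⟩
    · intro h0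
      apply hxe
      rw [Submodule.mem_span_singleton]
      refine ⟨-c, ?_⟩
      rw [neg_smul]
      exact (eq_neg_of_add_eq_zero_left h0).symm
    · rw [h.add, h.smul, h.smul_right, hx.2]
      have h3 : c ^ 2 * Q e = Q x := by
        rw [sq, ← hc, div_mul_cancel₀ _ hQe]
      rw [h3]
      linear_combination Q x * h2
  · exact h.exists_singular h2 W hnd hdim

/-- For `w ∈ v^⊥` not a multiple of `v`, some singular vector of `v^⊥` is not orthogonal to `w`. -/
theorem exists_sing_perp [Finite F] (h : QF Q B) (hnd : ∀ x, x ≠ 0 → ∃ y, B x y ≠ 0)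
    (hn : 5 ≤ Fintype.card ι) {v w : ι → F} (hv0 : v ≠ 0) (hwv : B w v = 0)
    (hw : ∀ c : F, w ≠ c • v) : ∃ a, B a v = 0 ∧ Q a = 0 ∧ B w a ≠ 0 := by
  have hndT : ∀ x ∈ (⊤ : Submodule F (ι → F)), x ≠ 0 → ∃ y ∈ (⊤ : Submodule F (ι → F)), B x y ≠ 0 :=
    fun x _ hx => by obtain ⟨y, hy⟩ := hnd x hx; exact ⟨y, trivial, hy⟩
  have hW1 := perp_finrank h ⊤ v
  rw [finrank_top, Module.finrank_pi] at hW1
  by_cases hQv : Q v = 0
  · obtain ⟨u, -, hu, hvu⟩ := h.exists_hyperbolic ⊤ hndT trivial hv0 hQv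
    have huv : B u v = 1 := by rw [h.comm, hvu]
    have hvv : B v v = 0 := by rw [h.self, hQv, mul_zero]
    have huu : B u u = 0 := by rw [h.self, hu, mul_zero]
    set W := perp B h (perp B h ⊤ v) u with hW
    have hW2 := perp_finrank h (perp B h ⊤ v) u
    have hWmem : ∀ x, x ∈ W ↔ B x v = 0 ∧ B x u = 0 := fun x => by
      rw [hW, mem_perp, mem_perp]
      simp
    have hWnd : ∀ x ∈ W, x ≠ 0 → ∃ y ∈ W, B x y ≠ 0 := by
      intro x hx hx0
      rw [hWmem] at hx
      obtain ⟨y, hy⟩ := hnd x hx0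
      refine ⟨y - B y u • v - B y v • u, ?_, ?_⟩
      · rw [hWmem]
        constructor
        · rw [h.sub_left, h.sub_left, h.smul_left, h.smul_left, hvv, huv]; ring
        · rw [h.sub_left, h.sub_left, h.smul_left, h.smul_left, huu, hvu]; ring
      · rw [h.sub_right, h.sub_right, h.smul_right, h.smul_right, hx.1, hx.2]
        simpa using hy
    obtain ⟨a₀, ha₀, ha₀0, hQa₀⟩ := exists_singular h W hWnd (by rw [← hW] at hW2; omega)
    obtain ⟨a, ha, hQa, hwa⟩ := h.exists_singular_not_orth W hWnd ha₀ ha₀0 hQa₀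
      (x := w - B w u • v) (by
        rw [hWmem]
        constructor
        · rw [h.sub_left, h.smul_left, hvv, hwv]; ring
        · rw [h.sub_left, h.smul_left, hvu]; ring) (sub_ne_zero.2 (hw _))
    rw [hWmem] at ha
    refine ⟨a, ha.1, hQa, ?_⟩
    rwa [h.sub_left, h.smul_left, h.comm v a, ha.1, mul_zero, sub_zero] at hwa
  · by_cases h2 : (2 : F) = 0
    · obtain ⟨x, hx, hx'⟩ := exists_ker (φ := rB B w) (ψ := rB B v) (fun c hc => by
        apply hw c
        by_contra hne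
        obtain ⟨y, hy⟩ := hnd (w - c • v) (sub_ne_zero.2 hne)
        apply hy
        rw [h.sub_left, h.smul_left, ← h.rB_dot, ← h.rB_dot v, hc, smul_dotProduct, smul_eq_mul,
          sub_self])
      rw [h.rB_dot] at hx hx'
      have hxv : B x v = 0 := by rw [h.comm, hx]
      obtain ⟨c, hc⟩ := isSquare_of_two h2 (Q x / Q v)
      refine ⟨x + c • v, ?_, ?_, ?_⟩
      · rw [h.add_left, h.smul_left, hxv, h.self]
        linear_combination c * Q v * h2
      · rw [h.add, h.smul, h.smul_right, hxv]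
        have h3 : c ^ 2 * Q v = Q x := by
          rw [sq, ← hc, div_mul_cancel₀ _ hQv]
        rw [h3]
        linear_combination Q x * h2
      · rw [h.add_right, h.smul_right, hwv, mul_zero, add_zero]
        exact hx'
    · have hWnd := perp_nd h h2 ⊤ hndT trivial hQv
      obtain ⟨a₀, ha₀, ha₀0, hQa₀⟩ := h.exists_singular h2 _ hWnd (by omega)
      obtain ⟨a, ha, hQa, hwa⟩ := h.exists_singular_not_orth _ hWnd ha₀ ha₀0 hQa₀
        (x := w) ⟨trivial, hwv⟩ (by have := hw 0; rwa [zero_smul] at this)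
      exact ⟨a, ha.2, hQa, hwa⟩

/-- If the polar form of `Q'` is not a multiple of `B` then some singular vector `v` of `Q'` has
`B' v ·` not proportional to `B v ·`. -/
theorem exists_sing_nonprop (h' : QF Q' B') (h : QF Q B)
    (hnd' : ∀ x, x ≠ 0 → ∃ y, B' x y ≠ 0) {v₀ : ι → F} (hv₀ : v₀ ≠ 0) (hQv₀ : Q' v₀ = 0)
    (hcon : ∀ v, v ≠ 0 → Q' v = 0 → ∃ c : F, ∀ x, B' v x = c * B v x) :
    ∃ c : F, c ≠ 0 ∧ ∀ x y, B' x y = c * B x y := by
  obtain ⟨v, -, hv, huv⟩ := h'.exists_hyperbolic ⊤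
    (fun x _ hx => by obtain ⟨y, hy⟩ := hnd' x hx; exact ⟨y, trivial, hy⟩) trivial hv₀ hQv₀
  obtain ⟨u, rfl⟩ : ∃ u, v₀ = u := ⟨_, rfl⟩
  have hvu : B' v v₀ = 1 := by rw [h'.comm, huv]
  have huu : B' v₀ v₀ = 0 := by rw [h'.self, hQv₀, mul_zero]
  have hvv : B' v v = 0 := by rw [h'.self, hv, mul_zero]
  have hv0 : v ≠ 0 := by
    rintro rfl
    rw [h'.zero_right] at huv
    exact zero_ne_one huv
  obtain ⟨α, hα⟩ := hcon v₀ hv₀ hQv₀
  obtain ⟨β, hβ⟩ := hcon v hv0 hv
  have h1 : α * B v₀ v = 1 := by rw [← hα, huv]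
  have h3 : β * B v₀ v = 1 := by rw [h.comm, ← hβ, hvu]
  have hb : B v₀ v ≠ 0 := by
    intro h0
    rw [h0, mul_zero] at h1
    exact zero_ne_one h1
  have hα0 : α ≠ 0 := by
    rintro rfl
    rw [zero_mul] at h1
    exact zero_ne_one h1
  have hαβ : β = α := mul_right_cancel₀ hb (h3.trans h1.symm)
  subst hαβ
  refine ⟨β, hα0, ?_⟩
  have hBvv : B v v = 0 := by
    have := hβ v
    rw [hvv] at this
    exact (mul_eq_zero.1 this.symm).resolve_left hα0
  have key : ∀ z, B' z v₀ = 0 → B' z v = 0 → ∀ x, B' z x = β * B z x := by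
    intro z hzu hzv x
    have hzv' : B z v = 0 := by
      have := hβ z
      rw [h'.comm, hzv, h.comm] at this
      exact (mul_eq_zero.1 this.symm).resolve_left hα0
    have hs : Q' (v₀ + (-(Q' z)) • v + z) = 0 := by
      rw [h'.add, h'.add, h'.smul, hQv₀, hv, h'.smul_right, huv, h'.add_left, h'.smul_left,
        h'.comm v₀ z, h'.comm v z, hzu, hzv]
      ring
    have hsv : B' (v₀ + (-(Q' z)) • v + z) v = 1 := by
      rw [h'.add_left, h'.add_left, h'.smul_left, huv, hvv, hzv]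
      ring
    have hs0 : v₀ + (-(Q' z)) • v + z ≠ 0 := by
      intro h0
      rw [h0, h'.zero_left] at hsv
      exact zero_ne_one hsv
    obtain ⟨γ, hγ⟩ := hcon _ hs0 hs
    have h4 := hγ v
    rw [hsv, h.add_left, h.add_left, h.smul_left, hBvv, hzv'] at h4
    have hγβ : γ = β := by
      apply mul_right_cancel₀ hb
      linear_combination -h1 - h4
    have h5 := hγ x
    rw [h'.add_left, h'.add_left, h'.smul_left, hα, hβ, h.add_left, h.add_left, h.smul_left, hγβ] at h5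
    linear_combination h5
  intro x y
  set z := x - B' x v • v₀ - B' x v₀ • v with hz
  have hzu : B' z v₀ = 0 := by
    rw [hz, h'.sub_left, h'.sub_left, h'.smul_left, h'.smul_left, huu, hvu]; ring
  have hzv : B' z v = 0 := by
    rw [hz, h'.sub_left, h'.sub_left, h'.smul_left, h'.smul_left, huv, hvv]; ring
  have h6 := key z hzu hzv y
  rw [hz, h'.sub_left, h'.sub_left, h'.smul_left, h'.smul_left, h.sub_left, h.sub_left,
    h.smul_left, h.smul_left, hα, hβ] at h6
  linear_combination h6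

/-- The Siegel elements of a quadratic form `Q` belong to `M`. -/
def HasSiegel (Q : (ι → F) → F) (B : (ι → F) → (ι → F) → F) (M : Subgroup (GL ι F)) : Prop :=
  ∀ a b : ι → F, Q a = 0 → B a b = 0 → ∃ y ∈ M, ∀ x,
    (y : Matrix ι ι F) *ᵥ x = x + B x a • b - B x b • a - (Q b * B x a) • a

/-- The full set `v^⊥` of axes: an additive subgroup of `v^⊥`, stable under the Siegel elements fixing `v`, which is
not contained in `F v`, is everything. -/
theorem irr_perp [Finite F] (h : QF Q B) (hnd : ∀ x, x ≠ 0 → ∃ y, B x y ≠ 0)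
    (hn : 5 ≤ Fintype.card ι) {v : ι → F} (hv0 : v ≠ 0)
    (C : Set (ι → F)) (hadd : ∀ x ∈ C, ∀ y ∈ C, x + y ∈ C)
    (hneg : ∀ x ∈ C, -x ∈ C)
    (hstab : ∀ x ∈ C, ∀ a, B a v = 0 → Q a = 0 → ∀ b, B b v = 0 → B a b = 0 →
      x + B x a • b - B x b • a - (Q b * B x a) • a ∈ C)
    (hCW : ∀ x ∈ C, B x v = 0) {x₀ : ι → F} (hx₀ : x₀ ∈ C) (hx₀v : ∀ c : F, x₀ ≠ c • v) :
    ∀ x, B x v = 0 → x ∈ C := by
  have hsub : ∀ x ∈ C, ∀ y ∈ C, x - y ∈ C := fun x hx y hy => by
    rw [sub_eq_add_neg]; exact hadd x hx _ (hneg y hy)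
  -- the basic step
  have step : ∀ x ∈ C, ∀ a, B a v = 0 → Q a = 0 → B x a ≠ 0 → ∀ b, B b v = 0 → B a b = 0 → b ∈ C := by
    intro x hx a ha haa hxa
    have haa' : B a a = 0 := by rw [h.self, haa, mul_zero]
    have h4 : ∀ b, B b v = 0 → B a b = 0 → B x a • b - B x b • a - (Q b * B x a) • a ∈ C := by
      intro b hb hab
      have h5 := hsub _ (hstab x hx a ha haa b hb hab) _ hx
      have h6 : x + B x a • b - B x b • a - (Q b * B x a) • a - x =
        B x a • b - B x b • a - (Q b * B x a) • a := by abel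
      rwa [h6] at h5
    have hFa : ∀ s : F, s • a ∈ C := by
      intro s
      obtain ⟨b, c, hb, hab, hc, hac, hbc⟩ := exists_pair h hnd hn (rB B v) (rB B a)
      rw [h.rB_dot, h.comm] at hb hc
      rw [h.rB_dot] at hab hac
      -- b and s' c
      set c' := (s / (B b c * B x a)) • c with hc'
      have hac' : B a c' = 0 := by rw [hc', h.smul_right, hac, mul_zero]
      have hc'W : B c' v = 0 := by rw [hc', h.smul_left, hc, mul_zero]
      have h5 := hsub _ (hadd _ (h4 b hb hab) _ (h4 c' hc'W hac')) _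
        (h4 (b + c') (by rw [h.add_left, hb, hc'W, add_zero]) (by rw [h.add_right, hab, hac', add_zero]))
      have h6 : B x a • b - B x b • a - (Q b * B x a) • a +
          (B x a • c' - B x c' • a - (Q c' * B x a) • a) -
          (B x a • (b + c') - B x (b + c') • a - (Q (b + c') * B x a) • a) =
          (B b c' * B x a) • a := by
        rw [h.add, h.add_right]
        ext i
        simp only [Pi.add_apply, Pi.sub_apply, Pi.smul_apply, smul_eq_mul]
        ring
      rw [h6] at h5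
      have h7 : B b c' * B x a = s := by
        rw [hc', h.smul_right, mul_assoc, div_mul_cancel₀]
        exact mul_ne_zero hbc hxa
      rwa [h7] at h5
    intro b hb hab
    have h5 := h4 ((B x a)⁻¹ • b) (by rw [h.smul_left, hb, mul_zero]) (by rw [h.smul_right, hab, mul_zero])
    have h6 := hadd _ (hadd _ h5 _ (hFa (B x ((B x a)⁻¹ • b)))) _
      (hFa (Q ((B x a)⁻¹ • b) * B x a))
    have h7 : B x a • ((B x a)⁻¹ • b) - B x ((B x a)⁻¹ • b) • a -
        (Q ((B x a)⁻¹ • b) * B x a) • a + B x ((B x a)⁻¹ • b) • a +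
        (Q ((B x a)⁻¹ • b) * B x a) • a = b := by
      rw [smul_smul, mul_inv_cancel₀ hxa, one_smul]
      abel
    rwa [h7] at h6
  obtain ⟨a, hav, haa, hxa⟩ := exists_sing_perp h hnd hn hv0 (hCW _ hx₀) hx₀v
  have haa' : B a a = 0 := by rw [h.self, haa, mul_zero]
  obtain ⟨a', hav', haa'', haa2⟩ := exists_sing_perp h hnd hn hv0 hav (fun c hc => by
    apply hxa
    rw [hc, h.smul_right, hCW _ hx₀, mul_zero])
  have ha'a' : B a' a' = 0 := by rw [h.self, haa'', mul_zero]
  have h1 := step x₀ hx₀ a hav haa hxa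
  have h2 := step a (h1 a hav haa') a' hav' haa'' haa2
  intro x hx
  have h5 := h1 (x - (B a x / B a a') • a') (by rw [h.sub_left, h.smul_left, hx, hav']; ring) (by
    rw [h.sub_right, h.smul_right, div_mul_cancel₀ _ haa2, sub_self])
  have h6 := h2 ((B a x / B a a') • a') (by rw [h.smul_left, hav', mul_zero])
    (by rw [h.smul_right, ha'a', mul_zero])
  have h7 := hadd _ h5 _ h6
  rwa [sub_add_cancel] at h7

/-- A subgroup of `GL` containing the Siegel elements of a non-degenerate quadratic form and an element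
which is not a similarity of the polar form contains `SL`. -/
theorem sl_le_of_siegel [Finite F] (hn : 6 ≤ Fintype.card ι) (h : QF Q B)
    (hnd : ∀ x, x ≠ 0 → ∃ y, B x y ≠ 0) {M : Subgroup (GL ι F)} (hM : HasSiegel Q B M)
    {g : GL ι F} (hgM : g ∈ M)
    (hg : ¬ ∃ c : F, c ≠ 0 ∧ ∀ u v, B ((g : Matrix ι ι F) *ᵥ u) ((g : Matrix ι ι F) *ᵥ v) = c * B u v) :
    Cfsg.Geo.specialLinear ι F ≤ M := by
  have hndT : ∀ x ∈ (⊤ : Submodule F (ι → F)), x ≠ 0 → ∃ y ∈ (⊤ : Submodule F (ι → F)), B x y ≠ 0 :=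
    fun x _ hx => by obtain ⟨y, hy⟩ := hnd x hx; exact ⟨y, trivial, hy⟩
  have hnt : Nontrivial ι := Fintype.one_lt_card_iff_nontrivial.1 (by omega)
  -- Siegel elements are isometries
  have hsieg : ∀ a b : ι → F, Q a = 0 → B a b = 0 → ∃ y ∈ M, (∀ x,
      (y : Matrix ι ι F) *ᵥ x = x + B x a • b - B x b • a - (Q b * B x a) • a) ∧
      ∀ p q, B ((y : Matrix ι ι F) *ᵥ p) ((y : Matrix ι ι F) *ᵥ q) = B p q := by
    intro a b ha hab
    obtain ⟨y, hy, hyx⟩ := hM a b ha hab
    obtain ⟨y', -, hyx', hyQ'⟩ := h.exists_siegel ha hab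
    have hyQ : ∀ x, Q ((y : Matrix ι ι F) *ᵥ x) = Q x := fun x => by
      rw [hyx, ← hyx', hyQ']
    refine ⟨y, hy, hyx, fun p q => ?_⟩
    have h1 := h.add ((y : Matrix ι ι F) *ᵥ p) ((y : Matrix ι ι F) *ᵥ q)
    rw [← mulVec_add, hyQ, hyQ, hyQ, h.add] at h1
    linear_combination -h1
  -- the transported form
  set gi : Matrix ι ι F := ((g⁻¹ : GL ι F) : Matrix ι ι F) with hgi
  have hgx : ∀ x, gi *ᵥ ((g : Matrix ι ι F) *ᵥ x) = x := inv_mulVec_cancel g
  have hgx' : ∀ x, (g : Matrix ι ι F) *ᵥ (gi *ᵥ x) = x := mulVec_inv_cancel g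
  set Q' : (ι → F) → F := fun x => Q (gi *ᵥ x) with hQ'
  set B' : (ι → F) → (ι → F) → F := fun x y => B (gi *ᵥ x) (gi *ᵥ y) with hB'
  have h' : QF Q' B' := by
    refine ⟨fun c v => ?_, fun x y => ?_, fun x y v => ?_, fun c x v => ?_⟩
    · simp only [hQ', mulVec_smul, h.smul]
    · simp only [hQ', hB', mulVec_add, h.add]
    · simp only [hB', mulVec_add, h.add_left]
    · simp only [hB', mulVec_smul, h.smul_left]
  have hnd' : ∀ x, x ≠ 0 → ∃ y, B' x y ≠ 0 := by
    intro x hx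
    obtain ⟨y, hy⟩ := hnd (gi *ᵥ x) (fun h0 => hx (by rw [← hgx' x, h0, mulVec_zero]))
    exact ⟨(g : Matrix ι ι F) *ᵥ y, by simp only [hB', hgx]; exact hy⟩
  -- Siegel elements of Q' belong to M
  have hsieg' : ∀ a b : ι → F, Q' a = 0 → B' a b = 0 → ∃ y ∈ M, ∀ x,
      (y : Matrix ι ι F) *ᵥ x = x + B' x a • b - B' x b • a - (Q' b * B' x a) • a := by
    intro a b ha hab
    obtain ⟨y, hy, hyx⟩ := hM (gi *ᵥ a) (gi *ᵥ b) ha hab
    refine ⟨g * y * g⁻¹, M.mul_mem (M.mul_mem hgM hy) (M.inv_mem hgM), fun x => ?_⟩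
    rw [Units.val_mul, Units.val_mul, ← mulVec_mulVec, ← mulVec_mulVec, hyx]
    simp only [mulVec_add, mulVec_sub, mulVec_smul]
    rw [← hgi, hgx', hgx', hgx']
  -- Step 1
  obtain ⟨s₀, -, hs₀0, hQs₀⟩ := exists_singular h ⊤ hndT (by rw [finrank_top, Module.finrank_pi]; omega)
  obtain ⟨v, hv0, hv, hvc⟩ : ∃ v, v ≠ 0 ∧ Q' v = 0 ∧ ∀ c : F, ∃ x, B' v x ≠ c * B v x := by
    by_contra hcon
    push Not at hcon
    obtain ⟨c, hc0, hc⟩ := exists_sing_nonprop h' h hnd' (v₀ := (g : Matrix ι ι F) *ᵥ s₀)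
      (fun h0 => hs₀0 (by rw [← hgx s₀, h0, mulVec_zero])) (by
        change Q (gi *ᵥ ((g : Matrix ι ι F) *ᵥ s₀)) = 0
        rw [hgx, hQs₀]) hcon
    apply hg
    refine ⟨c⁻¹, inv_ne_zero hc0, fun p q => ?_⟩
    have h3 := hc ((g : Matrix ι ι F) *ᵥ p) ((g : Matrix ι ι F) *ᵥ q)
    change B (gi *ᵥ ((g : Matrix ι ι F) *ᵥ p)) (gi *ᵥ ((g : Matrix ι ι F) *ᵥ q)) = _ at h3
    rw [hgx, hgx] at h3
    rw [h3, inv_mul_cancel_left₀ hc0]
  have hvv' : B' v v = 0 := by rw [h'.self, hv, mul_zero]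
  obtain ⟨w, hw⟩ := h.exists_rB hnd (rB B' v)
  have hwx : ∀ x, B w x = B' v x := fun x => by rw [← h.rB_dot, hw, h'.rB_dot]
  have hwv : B w v = 0 := by rw [hwx, hvv']
  have hwc : ∀ c : F, w ≠ c • v := by
    intro c hc
    obtain ⟨x, hx⟩ := hvc c
    apply hx
    rw [← hwx, hc, h.smul_left]
  -- Step 2
  obtain ⟨a, hav, hQa, hwa⟩ := exists_sing_perp h hnd (by omega) hv0 hwv hwc
  have hva : B v a = 0 := by rw [h.comm, hav]
  obtain ⟨b, hbS, hb⟩ := exists_notMem (F := F) (k := 2) (Submodule.span F (Set.range ![a, w, v]))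
    ![rB B v, rB B a] (by
      have := finrank_range_le_card (R := F) ![a, w, v]
      rw [Fintype.card_fin] at this
      change Module.finrank F (Submodule.span F (Set.range ![a, w, v])) ≤ 3 at this
      omega)
  have hvb : B v b = 0 := by rw [← h.rB_dot]; exact hb 0
  have hab : B a b = 0 := by rw [← h.rB_dot]; exact hb 1
  obtain ⟨y₀, hy₀M, hy₀x, hy₀B⟩ := hsieg a b hQa hab
  set w' := (y₀ : Matrix ι ι F) *ᵥ w with hw'
  have hy₀v : (y₀ : Matrix ι ι F) *ᵥ v = v := by
    rw [hy₀x, hva, hvb]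
    simp
  have hw'c : ∀ c e : F, w' ≠ c • w + e • v := by
    intro c e hc
    apply hbS
    rw [hw', hy₀x] at hc
    have h3 : B w a • b = (c - 1) • w + e • v + (B w b + Q b * B w a) • a := by
      have : w + B w a • b - B w b • a - (Q b * B w a) • a - (c • w + e • v) = 0 := by rw [hc, sub_self]
      rw [← sub_eq_zero, ← this, sub_smul, one_smul, add_smul]
      abel
    have ha : a ∈ Submodule.span F (Set.range ![a, w, v]) := Submodule.subset_span ⟨0, rfl⟩
    have hwm : w ∈ Submodule.span F (Set.range ![a, w, v]) := Submodule.subset_span ⟨1, rfl⟩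
    have hvm : v ∈ Submodule.span F (Set.range ![a, w, v]) := Submodule.subset_span ⟨2, rfl⟩
    have h4 : b = (B w a)⁻¹ • (B w a • b) := by rw [smul_smul, inv_mul_cancel₀ hwa, one_smul]
    rw [h4, h3]
    exact Submodule.smul_mem _ _ (Submodule.add_mem _ (Submodule.add_mem _ (Submodule.smul_mem _ _ hwm)
      (Submodule.smul_mem _ _ hvm)) (Submodule.smul_mem _ _ ha))
  -- the vectors d₁ d₂
  obtain ⟨d, e, hwd, hw'd, hwe, hw'e, hde⟩ := exists_pair h' hnd' (by omega) (rB B w) (rB B w')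
  rw [h.rB_dot] at hwd hw'd hwe hw'e
  -- the elements x and y
  obtain ⟨x₁, hx₁M, hx₁⟩ := hsieg' v d hv (by rw [← hwx, hwd])
  set yi : Matrix ι ι F := ((y₀⁻¹ : GL ι F) : Matrix ι ι F) with hyi
  have hyy : ∀ x, yi *ᵥ ((y₀ : Matrix ι ι F) *ᵥ x) = x := inv_mulVec_cancel y₀
  have hyy' : ∀ x, (y₀ : Matrix ι ι F) *ᵥ (yi *ᵥ x) = x := mulVec_inv_cancel y₀
  have hyiv : yi *ᵥ v = v := by
    conv_lhs => rw [← hy₀v]
    exact hyy v
  have hw'x : ∀ x, B w' x = B' v (yi *ᵥ x) := by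
    intro x
    rw [← hwx, ← hy₀B w (yi *ᵥ x), hyy']
  obtain ⟨x₂, hx₂M, hx₂⟩ := hsieg' v (yi *ᵥ e) hv (by rw [← hw'x, hw'e])
  obtain ⟨x₃, hx₃M, hx₃x⟩ : ∃ x₃ ∈ M, ∀ x, (x₃ : Matrix ι ι F) *ᵥ x = x + B w' x • e -
      (B' (yi *ᵥ x) (yi *ᵥ e) + Q' (yi *ᵥ e) * B w' x) • v := by
    refine ⟨y₀ * x₂ * y₀⁻¹, M.mul_mem (M.mul_mem hy₀M hx₂M) (M.inv_mem hy₀M), fun x => ?_⟩
    rw [Units.val_mul, Units.val_mul, ← mulVec_mulVec, ← mulVec_mulVec, hx₂, ← hyi]
    simp only [mulVec_add, mulVec_sub, mulVec_smul]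
    rw [hyy', hyy', hy₀v, h'.comm (yi *ᵥ x) v, ← hw'x, add_smul]
    abel
  have hx₁x : ∀ x, (x₁ : Matrix ι ι F) *ᵥ x = x + B w x • d -
      (B' x d + Q' d * B w x) • v := by
    intro x
    rw [hx₁, h'.comm x v, ← hwx, add_smul]
    abel
  -- the transvection
  have hw'v : B w' v = 0 := by rw [hw'x, hyiv, hvv']
  set k₁ := B' d e with hk₁
  set k₂ := B' (yi *ᵥ d) (yi *ᵥ e) with hk₂
  set θ : ι → F := rB B ((-k₁) • w' + k₂ • w) with hθ
  have hθx : ∀ x, θ ⬝ᵥ x = -k₁ * B w' x + k₂ * B w x := by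
    intro x
    rw [hθ, h.rB_dot, h.add_left, h.smul_left, h.smul_left]
  have hθv : θ ⬝ᵥ v = 0 := by rw [hθx, hwv, hw'v]; ring
  have hT : HasTv M v θ := by
    rw [hasTv_iff]
    refine ⟨hθv, ?_⟩
    have heq : tv v θ hθv * (x₃ * x₁) = x₁ * x₃ := by
      apply gl_ext
      intro x
      have hvd : B' v d = 0 := by rw [← hwx, hwd]
      have hve : B' v (yi *ᵥ e) = 0 := by rw [← hw'x, hw'e]
      rw [Units.val_mul, Units.val_mul, Units.val_mul, ← mulVec_mulVec, ← mulVec_mulVec,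
        ← mulVec_mulVec, tv_mulVec, hx₁x, hx₃x, hx₁x, hx₃x]
      simp only [hθx, h.add_right, h.sub_right,
        h.smul_right, hwd, hw'd, hwe, hw'e, hwv, hw'v, mulVec_add, mulVec_sub, mulVec_smul, h'.add_left,
        h'.sub_left, h'.smul_left, hyiv, hvd, hve]
      rw [h'.comm e d, ← hk₁, ← hk₂]
      ext i
      simp only [Pi.add_apply, Pi.sub_apply, Pi.smul_apply, smul_eq_mul]
      ring
    have : tv v θ hθv = x₁ * x₃ * (x₃ * x₁)⁻¹ := by
      rw [← heq, mul_inv_cancel_right]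
    rw [this]
    exact M.mul_mem (M.mul_mem hx₁M hx₃M) (M.inv_mem (M.mul_mem hx₃M hx₁M))
  have hθ0 : ∀ c : F, (-k₁) • w' + k₂ • w ≠ c • v := by
    intro c h0
    apply hw'c (k₁⁻¹ * k₂) (k₁⁻¹ * (-c))
    have h3 : k₁ • w' = k₂ • w + (-c) • v := by
      rw [neg_smul c, ← sub_eq_add_neg, ← h0]
      rw [neg_smul]
      abel
    rw [← smul_smul, ← smul_smul k₁⁻¹ (-c), ← smul_add, ← h3, smul_smul, inv_mul_cancel₀ hde, one_smul]
  -- full centre v
  have hfull : FullCentre M v := by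
    intro φ hφ
    obtain ⟨u, rfl⟩ := h.exists_rB hnd φ
    rw [h.rB_dot] at hφ
    refine irr_perp h hnd (by omega) hv0
      {x | HasTv M v (rB B x)} (fun x hx y hy => ?_) (fun x hx => ?_) ?_ ?_
      (x₀ := (-k₁) • w' + k₂ • w) hT hθ0 u hφ
    · change HasTv M v (rB B (x + y))
      rw [h.rB_add]
      exact HasTv.add_right hx hy
    · change HasTv M v (rB B (-x))
      have hx' : HasTv M v (rB B x) := hx
      have h1 := hx'.neg_left
      have h3 := (hasTv_smul_comm M (-1) v (rB B x)).1 (by simpa using h1)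
      rw [neg_one_smul, ← h.rB_neg] at h3
      exact h3
    · intro x hx a ha hQa b hb hab
      have hx' : HasTv M v (rB B x) := hx
      obtain ⟨y, hy, hyx, hyB⟩ := hsieg a b hQa hab
      have h1 := hx'.conj hy
      have hyv : (y : Matrix ι ι F) *ᵥ v = v := by
        rw [hyx, h.comm v a, ha, h.comm v b, hb]
        simp
      rw [hyv] at h1
      change HasTv M v (rB B (x + B x a • b - B x b • a - (Q b * B x a) • a))
      rw [← hyx]
      convert h1 using 1
      apply dot_ext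
      intro z
      rw [← dotProduct_mulVec, h.rB_dot, h.rB_dot]
      conv_lhs => rw [← mulVec_inv_cancel y z]
      rw [hyB]
    · intro x hx
      rw [← h.rB_dot]
      exact hx.1
  -- everything
  apply sl_le_of_centres
  rw [eq_top_iff]
  intro x _
  refine h.irr ⊤ hndT trivial hs₀0 hQs₀ (fun a _ => ?_)
    {x | FullCentre M x} (fun x hx y hy => FullCentre.add hx hy) (fun x hx => ?_) ?_
    (fun _ _ => trivial) (v := v) hfull hv0 x trivial
  · obtain ⟨b, c, hb, -, hc, -, hbc⟩ := exists_pair h hnd (by omega) (rB B a) (rB B a)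
    rw [h.rB_dot] at hb hc
    exact ⟨b, trivial, c, trivial, hb, hc, hbc⟩
  · have hx' : FullCentre M x := hx
    have := hx'.smul (-1)
    rwa [neg_one_smul] at this
  · intro x hx a ha hQa b hb hab
    have hx' : FullCentre M x := hx
    obtain ⟨y, hy, hyx, -⟩ := hsieg a b hQa hab
    have h1 := hx'.conj hy
    rwa [hyx] at h1

/-- The Siegel elements of `Q` belong to `Ω(Q)`, `n ≥ 5`. -/
theorem hasSiegel_omegaGL [Finite F] (hn : 5 ≤ Fintype.card ι)
    (hQ : Cfsg.Geo.IsNondegenerateQuadraticForm Q) {M : Subgroup (GL ι F)}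
    (hM : Cfsg.Geo.omegaGL Q ≤ M) : HasSiegel Q (QuadraticMap.polar Q) M := by
  intro a b ha hab
  have h := QF.of Q hQ
  have ha' : (Cfsg.Agent.H884.OmegaGL.bundle Q hQ) a = 0 := ha
  have hab' : QuadraticMap.polar (⇑(Cfsg.Agent.H884.OmegaGL.bundle Q hQ)) a b = 0 := hab
  refine ⟨(Cfsg.Agent.LieClassical.OrthFinite.glEquiv ι F).symm
    (Cfsg.Agent.LieClassical.OrthCore.siegel (Cfsg.Agent.H884.OmegaGL.bundle Q hQ) a b ha' hab'), hM ?_, fun x => ?_⟩
  · rw [Cfsg.Agent.H884.OmegaGL.mem_omegaGL Q hQ hn, MulEquiv.apply_symm_apply]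
    exact Cfsg.Agent.LieClassical.OrthCore.siegel_mem_E ha' hab'
  · have h1 := Cfsg.Agent.LieClassical.OrthFinite.glEquiv_apply
      ((Cfsg.Agent.LieClassical.OrthFinite.glEquiv ι F).symm
        (Cfsg.Agent.LieClassical.OrthCore.siegel (Cfsg.Agent.H884.OmegaGL.bundle Q hQ) a b ha' hab')) x
    rw [MulEquiv.apply_symm_apply, Cfsg.Agent.LieClassical.OrthCore.siegel_apply] at h1
    rw [h.comm x a, h.comm x b]
    exact h1.symm

/-- **Overgroups of `Ω(Q)` in `GL_n(q)`**, any characteristic, `n ≥ 6`: a subgroup which contains `Ω(Q)` and an element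
which is not a similarity of the polar form of `Q` contains `SL_n(q)`. -/
theorem ov_omega_six [Finite F] (hn : 6 ≤ Fintype.card ι)
    (hQ : Cfsg.Geo.IsNondegenerateQuadraticForm Q) {M : Subgroup (GL ι F)}
    (hM : Cfsg.Geo.omegaGL Q ≤ M) {g : GL ι F} (hgM : g ∈ M)
    (hg : g ∉ Cfsg.Geo.similarityGroup (QuadraticMap.polar Q)) : Cfsg.Geo.specialLinear ι F ≤ M := by
  refine sl_le_of_siegel hn (QF.of Q hQ) (fun x hx => (hQ.nondegenerate x hx).2)
    (hasSiegel_omegaGL (by omega) hQ hM) hgM ?_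
  rintro ⟨c, hc0, hc⟩
  exact hg ⟨Units.mk0 c hc0, fun u v => by rw [hc, Units.val_mk0]⟩

/-- **PSL-2**: overgroups of `Ω(Q)` in `GL_n(q)`. -/
theorem ov_omega [Finite F] (hn : 7 ≤ Fintype.card ι)
    (hQ : Cfsg.Geo.IsNondegenerateQuadraticForm Q) {M : Subgroup (GL ι F)}
    (hM : Cfsg.Geo.omegaGL Q ≤ M) {g : GL ι F} (hgM : g ∈ M)
    (hg : g ∉ Cfsg.Geo.similarityGroup (QuadraticMap.polar Q)) : Cfsg.Geo.specialLinear ι F ≤ M :=
  ov_omega_six (by omega) hQ hM hgM hg

end Cfsg.Agent.H396.Rl
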